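import Mathlib

/-!
# Fully ramified linear characters: group theoretic form and a wreath product construction

`Ram Z lam`: `lam` is an invariant linear character of the normal subgroup `Z` of `H` and every
`x ∉ Z` has a `y` with `⁅x, y⁆ ∈ Z`, `lam ⁅x, y⁆ ≠ 1`.
If `Ram Z lam` in `K` and `Ram ZL mu` in `L` with a suitable `π : L →* Q`, then the twisted wreath
product `(Q → K) ⋊ L` has the property again.
-/

set_option autoImplicit false

namespace Cfsg.Agent.H621

universe u v w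

open scoped commutatorElement

/-- `lam` is an invariant linear character of the normal subgroup `Z` of `H`, and every `x ∉ Z`
has a `y` with `⁅x, y⁆ ∈ Z`, `lam ⁅x, y⁆ ≠ 1`. -/
structure Ram {H : Type*} [Group H] (Z : Subgroup H) (lam : H → ℂˣ) : Prop where
  normal : Z.Normal
  mul : ∀ x ∈ Z, ∀ y ∈ Z, lam (x * y) = lam x * lam y
  inv : ∀ z ∈ Z, ∀ h, lam (h * z * h⁻¹) = lam z
  ram : ∀ x, x ∉ Z → ∃ y, ⁅x, y⁆ ∈ Z ∧ lam ⁅x, y⁆ ≠ 1

theorem Ram.one {H : Type*} [Group H] {Z : Subgroup H} {lam : H → ℂˣ} (h : Ram Z lam) :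
    lam 1 = 1 := by
  have := h.mul 1 Z.one_mem 1 Z.one_mem
  rw [mul_one] at this
  exact left_eq_mul.1 this

theorem Ram.map_inv {H : Type*} [Group H] {Z : Subgroup H} {lam : H → ℂˣ} (h : Ram Z lam)
    {x : H} (hx : x ∈ Z) : lam x⁻¹ = (lam x)⁻¹ := by
  have := h.mul x⁻¹ (Z.inv_mem hx) x hx
  rw [inv_mul_cancel, h.one] at this
  exact eq_inv_of_mul_eq_one_left this.symm

theorem Ram.map_pow {H : Type*} [Group H] {Z : Subgroup H} {lam : H → ℂˣ} (h : Ram Z lam)
    {x : H} (hx : x ∈ Z) (n : ℕ) : lam (x ^ n) = (lam x) ^ n := by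
  induction n with
  | zero => simp [h.one]
  | succ n ih => rw [pow_succ, h.mul _ (Z.pow_mem hx n) _ hx, ih, pow_succ]

/-- The twisted wreath product `(Q → K) ⋊ L`, `L` acting through `π : L →* Q`. -/
@[ext] structure Wr (K : Type u) {L : Type v} {Q : Type w} [Group L] [Group Q] (π : L →* Q) where
  /-- base component -/
  f : Q → K
  /-- top component -/
  l : L

namespace Wr

variable {K : Type u} {L : Type v} {Q : Type w} [Group K] [Group L] [Group Q] {π : L →* Q}

instance instMulWr : Mul (Wr K π) := ⟨fun a b => ⟨fun i => a.f i * b.f ((π a.l)⁻¹ * i), a.l * b.l⟩⟩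
instance instOneWr : One (Wr K π) := ⟨⟨fun _ => 1, 1⟩⟩
instance instInvWr : Inv (Wr K π) := ⟨fun a => ⟨fun i => (a.f (π a.l * i))⁻¹, a.l⁻¹⟩⟩

@[simp] theorem mul_f (a b : Wr K π) (i : Q) : (a * b).f i = a.f i * b.f ((π a.l)⁻¹ * i) := rfl
@[simp] theorem mul_l (a b : Wr K π) : (a * b).l = a.l * b.l := rfl
@[simp] theorem one_f (i : Q) : (1 : Wr K π).f i = 1 := rfl
@[simp] theorem one_l : (1 : Wr K π).l = 1 := rfl
@[simp] theorem inv_f (a : Wr K π) (i : Q) : (a⁻¹).f i = (a.f (π a.l * i))⁻¹ := rfl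
@[simp] theorem inv_l (a : Wr K π) : (a⁻¹).l = a.l⁻¹ := rfl

instance instGroupWr : Group (Wr K π) := Group.ofLeftAxioms
  (by intro a b c; ext i <;> simp [mul_assoc])
  (by intro a; ext i <;> simp)
  (by intro a; ext i <;> simp)

omit [Group K] in
theorem finite_wr [Finite K] [Finite L] [Finite Q] : Finite (Wr K π) := by
  have : Function.Injective (fun a : Wr K π => (a.f, a.l)) := by
    intro a b h
    simp only [Prod.mk.injEq] at h
    exact Wr.ext h.1 h.2
  exact Finite.of_injective _ this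

/-- `Wr K π` as a product -/
def equivProd : Wr K π ≃ (Q → K) × L where
  toFun a := (a.f, a.l)
  invFun a := ⟨a.1, a.2⟩
  left_inv _ := rfl
  right_inv _ := rfl

omit [Group K] in
theorem card_wr : Nat.card (Wr K π) = Nat.card (Q → K) * Nat.card L := by
  rw [Nat.card_congr (equivProd (K := K) (π := π)), Nat.card_prod]

/-- The subgroup `Z ^ Q × ZL`. -/
def ZZ (Z : Subgroup K) (ZL : Subgroup L) (_hZL : ZL ≤ π.ker) : Subgroup (Wr K π) where
  carrier := {a | (∀ i, a.f i ∈ Z) ∧ a.l ∈ ZL}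
  mul_mem' := by
    rintro a b ⟨ha, ha'⟩ ⟨hb, hb'⟩
    exact ⟨fun i => Z.mul_mem (ha i) (hb _), ZL.mul_mem ha' hb'⟩
  one_mem' := ⟨fun _ => Z.one_mem, ZL.one_mem⟩
  inv_mem' := by
    rintro a ⟨ha, ha'⟩
    exact ⟨fun i => Z.inv_mem (ha _), ZL.inv_mem ha'⟩

theorem mem_ZZ {Z : Subgroup K} {ZL : Subgroup L} {hZL : ZL ≤ π.ker} {a : Wr K π} :
    a ∈ ZZ Z ZL hZL ↔ (∀ i, a.f i ∈ Z) ∧ a.l ∈ ZL := Iff.rfl

open scoped Classical in
/-- the linear character of `Z ^ Q × ZL` -/
noncomputable def lamW [Fintype Q] (lam : K → ℂˣ) (mu : L → ℂˣ) (a : Wr K π) : ℂˣ :=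
  (∏ i, lam (a.f i)) * mu a.l

/-- The construction. -/
theorem ram_wr [Fintype Q] {Z : Subgroup K} {lam : K → ℂˣ} (hK : Ram Z lam)
    {ZL : Subgroup L} {mu : L → ℂˣ} (hL : Ram ZL mu) (hZL : ZL ≤ π.ker)
    (hπ : ∀ l : L, l ∉ π.ker → ∃ y ∈ π.ker, ⁅l, y⁆ ∈ ZL ∧ mu ⁅l, y⁆ ≠ 1) :
    Ram (ZZ Z ZL hZL) (lamW (π := π) lam mu) := by
  classical
  have hπ1 : ∀ l ∈ ZL, π l = 1 := fun l hl => hZL hl
  have hconj : ∀ z ∈ ZZ Z ZL hZL, ∀ h : Wr K π, ∀ i, (h * z * h⁻¹).f i =
      h.f i * z.f ((π h.l)⁻¹ * i) * (h.f i)⁻¹ := by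
    rintro z ⟨-, hz⟩ h i
    simp [hπ1 _ hz]
  refine ⟨⟨fun z hz h => ?_⟩, fun x hx y hy => ?_, fun z hz h => ?_, fun x hx => ?_⟩
  · refine ⟨fun i => ?_, ?_⟩
    · rw [hconj z hz h i]
      exact hK.normal.conj_mem _ (hz.1 _) _
    · exact hL.normal.conj_mem _ hz.2 _
  · simp only [lamW, mul_f, mul_l, hπ1 _ hx.2, inv_one, one_mul]
    rw [hL.mul _ hx.2 _ hy.2, Finset.prod_congr rfl (fun i _ => hK.mul _ (hx.1 i) _ (hy.1 i)),
      Finset.prod_mul_distrib]
    exact mul_mul_mul_comm _ _ _ _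
  · simp only [lamW]
    congr 1
    · rw [Finset.prod_congr rfl (fun i _ => by rw [hconj z hz h i, hK.inv _ (hz.1 _)])]
      exact Fintype.prod_equiv (Equiv.mulLeft (π h.l)⁻¹) _ _ (fun i => rfl)
    · exact hL.inv _ hz.2 _
  · by_cases h1 : x.l ∈ π.ker
    · have h1' : π x.l = 1 := h1
      by_cases h2 : ∃ i, x.f i ∉ Z
      · obtain ⟨i, hi⟩ := h2
        obtain ⟨y, hy1, hy2⟩ := hK.ram _ hi
        let y' : Wr K π := ⟨Pi.mulSingle i y, 1⟩
        have hl : (⁅x, y'⁆).l = 1 := by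
          simp [commutatorElement_def, y']
        have hf : ∀ j, (⁅x, y'⁆).f j = ⁅x.f j, (Pi.mulSingle i y : Q → K) j⁆ := by
          intro j
          simp [commutatorElement_def, y', h1']
        have hf' : ∀ j, j ≠ i → (⁅x, y'⁆).f j = 1 := by
          intro j hj
          rw [hf j, Pi.mulSingle_eq_of_ne hj, commutatorElement_one_right]
        have hfi : (⁅x, y'⁆).f i = ⁅x.f i, y⁆ := by
          rw [hf i, Pi.mulSingle_eq_same]
        refine ⟨y', ⟨fun j => ?_, ?_⟩, ?_⟩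
        · by_cases hj : j = i
          · subst hj; rw [hfi]; exact hy1
          · rw [hf' j hj]; exact Z.one_mem
        · rw [hl]; exact ZL.one_mem
        · simp only [lamW]
          rw [hl, hL.one, mul_one, Finset.prod_eq_single i, hfi]
          · exact hy2
          · intro j _ hj
            rw [hf' j hj, hK.one]
          · simp
      · push Not at h2
        have h3 : x.l ∉ ZL := fun h => hx ⟨h2, h⟩
        obtain ⟨y, hy1, hy2⟩ := hL.ram _ h3
        let y' : Wr K π := ⟨fun _ => 1, y⟩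
        have hl : (⁅x, y'⁆).l = ⁅x.l, y⁆ := by
          simp [commutatorElement_def, y']
        have hf : ∀ j, (⁅x, y'⁆).f j = x.f j * (x.f ((π y)⁻¹ * j))⁻¹ := by
          intro j
          simp [commutatorElement_def, y', h1']
        refine ⟨y', ⟨fun j => ?_, ?_⟩, ?_⟩
        · rw [hf j]; exact Z.mul_mem (h2 _) (Z.inv_mem (h2 _))
        · rw [hl]; exact hy1
        · simp only [lamW]
          rw [hl]
          have : ∏ j, lam ((⁅x, y'⁆).f j) = 1 := by
            rw [Finset.prod_congr rfl (fun j _ => by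
              rw [hf j, hK.mul _ (h2 _) _ (Z.inv_mem (h2 _)), hK.map_inv (h2 _)])]
            rw [Finset.prod_mul_distrib, Finset.prod_inv_distrib]
            rw [Fintype.prod_equiv (Equiv.mulLeft (π y)⁻¹) (fun j => lam (x.f ((π y)⁻¹ * j)))
              (fun j => lam (x.f j)) (fun j => rfl)]
            exact mul_inv_cancel _
          rw [this, one_mul]
          exact hy2
    · obtain ⟨y, hy, hy1, hy2⟩ := hπ _ h1
      have hy' : π y = 1 := hy
      let y' : Wr K π := ⟨fun _ => 1, y⟩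
      have hl : (⁅x, y'⁆).l = ⁅x.l, y⁆ := by
        simp [commutatorElement_def, y']
      have hf : ∀ j, (⁅x, y'⁆).f j = 1 := by
        intro j
        simp [commutatorElement_def, y', hy']
      refine ⟨y', ⟨fun j => ?_, ?_⟩, ?_⟩
      · rw [hf j]; exact Z.one_mem
      · rw [hl]; exact hy1
      · simp only [lamW]
        rw [hl, Finset.prod_congr rfl (fun j _ => by rw [hf j, hK.one])]
        simpa using hy2

end Wr

/-! ### The Heisenberg group -/

/-- The Heisenberg group of order `p ^ 3`. -/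
@[ext] structure Heis (p : ℕ) where
  /-- first coordinate -/
  a : ZMod p
  /-- second coordinate -/
  b : ZMod p
  /-- central coordinate -/
  c : ZMod p

namespace Heis

variable {p : ℕ}

instance instMulHeis : Mul (Heis p) := ⟨fun x y => ⟨x.a + y.a, x.b + y.b, x.c + y.c + x.a * y.b⟩⟩
instance instOneHeis : One (Heis p) := ⟨⟨0, 0, 0⟩⟩
instance instInvHeis : Inv (Heis p) := ⟨fun x => ⟨-x.a, -x.b, -x.c + x.a * x.b⟩⟩

@[simp] theorem mul_a (x y : Heis p) : (x * y).a = x.a + y.a := rfl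
@[simp] theorem mul_b (x y : Heis p) : (x * y).b = x.b + y.b := rfl
@[simp] theorem mul_c (x y : Heis p) : (x * y).c = x.c + y.c + x.a * y.b := rfl
@[simp] theorem one_a : (1 : Heis p).a = 0 := rfl
@[simp] theorem one_b : (1 : Heis p).b = 0 := rfl
@[simp] theorem one_c : (1 : Heis p).c = 0 := rfl
@[simp] theorem inv_a (x : Heis p) : (x⁻¹).a = -x.a := rfl
@[simp] theorem inv_b (x : Heis p) : (x⁻¹).b = -x.b := rfl
@[simp] theorem inv_c (x : Heis p) : (x⁻¹).c = -x.c + x.a * x.b := rfl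

instance instGroupHeis : Group (Heis p) := Group.ofLeftAxioms
  (by intro x y z; ext <;> simp <;> ring)
  (by intro x; ext <;> simp)
  (by intro x; ext <;> simp)

/-- as a product -/
def equivProd : Heis p ≃ ZMod p × ZMod p × ZMod p where
  toFun x := (x.a, x.b, x.c)
  invFun x := ⟨x.1, x.2.1, x.2.2⟩
  left_inv _ := rfl
  right_inv _ := rfl

theorem card_heis : Nat.card (Heis p) = p ^ 3 := by
  rw [Nat.card_congr (equivProd (p := p)), Nat.card_prod, Nat.card_prod, Nat.card_zmod]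
  ring

theorem finite_heis [NeZero p] : Finite (Heis p) := Finite.of_equiv _ (equivProd (p := p)).symm

/-- projection -/
def pr : Heis p →* Multiplicative (ZMod p) where
  toFun x := Multiplicative.ofAdd x.a
  map_one' := rfl
  map_mul' _ _ := rfl

/-- section -/
def sec : Multiplicative (ZMod p) →* Heis p where
  toFun x := ⟨x.toAdd, 0, 0⟩
  map_one' := rfl
  map_mul' x y := by ext <;> simp

theorem pr_sec (x : Multiplicative (ZMod p)) : pr (sec x) = x := rfl

/-- centre -/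
def cen (p : ℕ) : Subgroup (Heis p) where
  carrier := {x | x.a = 0 ∧ x.b = 0}
  mul_mem' := by
    rintro x y ⟨hx, hx'⟩ ⟨hy, hy'⟩
    exact ⟨by simp [hx, hy], by simp [hx', hy']⟩
  one_mem' := ⟨rfl, rfl⟩
  inv_mem' := by
    rintro x ⟨hx, hx'⟩
    exact ⟨by simp [hx], by simp [hx']⟩

theorem cen_le : cen p ≤ (pr (p := p)).ker := by
  rintro x ⟨hx, -⟩
  rw [MonoidHom.mem_ker]
  change Multiplicative.ofAdd x.a = 1
  rw [hx]; rfl

/-- the character of the centre -/
noncomputable def mu [NeZero p] (x : Heis p) : ℂˣ := Circle.toUnits (ZMod.toCircle x.c)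

theorem mu_eq_one [NeZero p] {x : Heis p} : mu x = 1 ↔ x.c = 0 := by
  constructor
  · intro h
    have h1 : ZMod.toCircle x.c = 1 := by
      have h2 := congrArg Units.val h
      exact Subtype.ext h2
    have h2 : ZMod.toCircle x.c = ZMod.toCircle (0 : ZMod p) := by
      rw [h1, AddChar.map_zero_eq_one]
    exact ZMod.injective_toCircle h2
  · intro h
    rw [mu, h, AddChar.map_zero_eq_one, map_one]

theorem comm_mem (x y : Heis p) : ⁅x, y⁆ ∈ cen p := by
  constructor <;> simp [commutatorElement_def]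

theorem comm_c (x y : Heis p) : (⁅x, y⁆).c = x.a * y.b - y.a * x.b := by
  simp [commutatorElement_def]; ring

theorem ram_heis [NeZero p] [Fact p.Prime] : Ram (cen p) (mu (p := p)) := by
  refine ⟨⟨fun z hz h => ?_⟩, fun x hx y hy => ?_, fun z hz h => ?_, fun x hx => ?_⟩
  · constructor
    · simp [hz.1]
    · simp [hz.2]
  · simp only [mu, mul_c, hx.1, zero_mul, add_zero, AddChar.map_add_eq_mul, map_mul]
  · have : (h * z * h⁻¹).c = z.c := by
      have h1 := hz.1
      have h2 := hz.2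
      change h.c + z.c + h.a * z.b + (-h.c + h.a * h.b) + (h.a + z.a) * -h.b = z.c
      rw [h1, h2]; ring
    simp only [mu, this]
  · by_cases ha : x.a = 0
    · have hb : x.b ≠ 0 := fun h => hx ⟨ha, h⟩
      refine ⟨⟨1, 0, 0⟩, comm_mem _ _, ?_⟩
      rw [Ne, mu_eq_one, comm_c]
      simpa [ha] using hb
    · refine ⟨⟨0, 1, 0⟩, comm_mem _ _, ?_⟩
      rw [Ne, mu_eq_one, comm_c]
      simpa using ha

theorem ram_ker [NeZero p] [Fact p.Prime] (l : Heis p) (hl : l ∉ (pr (p := p)).ker) :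
    ∃ y ∈ (pr (p := p)).ker, ⁅l, y⁆ ∈ cen p ∧ mu ⁅l, y⁆ ≠ 1 := by
  have ha : l.a ≠ 0 := by
    intro h
    apply hl
    rw [MonoidHom.mem_ker]
    change Multiplicative.ofAdd l.a = 1
    rw [h]; rfl
  refine ⟨⟨0, 1, 0⟩, rfl, comm_mem _ _, ?_⟩
  rw [Ne, mu_eq_one, comm_c]
  simpa using ha

end Heis

end Cfsg.Agent.H621
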